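import Mathlib
import Cfsg.Agent.Lib.Ore.Main

/-!
Commutators of endomorphisms of determinant one: closure properties, transvections, scalars,
dimension two, and the case of a finite field with at least four elements.
-/

set_option autoImplicit false
set_option linter.unusedSectionVars false

namespace CfsgLib.Ore

open Module Submodule Polynomial CfsgLib.MatConj

universe u

variable {K : Type*} [Field K]

section

variable {V W : Type*} [AddCommGroup V] [Module K V] [FiniteDimensional K V]
  [AddCommGroup W] [Module K W] [FiniteDimensional K W]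

/-- `T` is a commutator of two endomorphisms of determinant one. -/
def Comm (T : End K V) : Prop :=
  ∃ P A : End K V, LinearMap.det P = 1 ∧ LinearMap.det A = 1 ∧ T * A * P = P * A

theorem Comm.of_sim {T : End K V} {T' : End K W} (h : Comm T') (hs : Sim T T') : Comm T := by
  obtain ⟨P, A, h1, h2, h3⟩ := h
  obtain ⟨e, he⟩ := hs
  refine ⟨e.symm.conj P, e.symm.conj A, (LinearMap.det_conj P e.symm).trans h1,
    (LinearMap.det_conj A e.symm).trans h2, ?_⟩
  ext v
  apply e.injective
  have := LinearMap.congr_fun h3 (e v)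
  simpa [he] using this

theorem Comm.prodMap {S : End K V} {T : End K W} (hS : Comm S) (hT : Comm T) :
    Comm (S.prodMap T : End K (V × W)) := by
  obtain ⟨P, A, h1, h2, h3⟩ := hS
  obtain ⟨Q, B, h4, h5, h6⟩ := hT
  refine ⟨P.prodMap Q, A.prodMap B, by rw [LinearMap.det_prodMap, h1, h4, one_mul],
    by rw [LinearMap.det_prodMap, h2, h5, one_mul], ?_⟩
  simp only [LinearMap.prodMap_mul, h3, h6]

theorem comm_one : Comm (1 : End K V) := ⟨1, 1, map_one _, map_one _, by simp⟩

theorem comm_of_ed {U : Type*} [AddCommGroup U] [Module K U] [FiniteDimensional K U] {T : End K U}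
    {S : End K V} {R : End K W} (h : ed T = ed S + ed R) (hS : Comm S) (hR : Comm R) : Comm T :=
  (hS.prodMap hR).of_sim (sim_of_ed_eq (by rw [h, ed_prodMap]))

theorem finrank_ker_prodMap (S : End K V) (T : End K W) :
    finrank K (LinearMap.ker (S.prodMap T)) =
      finrank K (LinearMap.ker S) + finrank K (LinearMap.ker T) := by
  rw [LinearMap.ker_prodMap, ← finrank_prod]
  exact LinearEquiv.finrank_eq
    { toFun := fun v => (⟨v.1.1, v.2.1⟩, ⟨v.1.2, v.2.2⟩)
      map_add' := fun _ _ => rfl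
      map_smul' := fun _ _ => rfl
      invFun := fun w => ⟨(w.1.1, w.2.1), w.1.2, w.2.2⟩
      left_inv := fun _ => rfl
      right_inv := fun _ => rfl }

theorem comm_of_sim_mul [Finite K] {T A : End K V} (hA : LinearMap.det A = 1) (h : Sim (T * A) A)
    {x : K[X] × ℕ} (hx : x ∈ ed A) (h1 : x.2 = 1) : Comm T := by
  obtain ⟨e, he⟩ := h.symm
  obtain ⟨c, hc, hd⟩ := exists_commute_det_pow A hx (LinearMap.det (e : End K V))⁻¹
  refine ⟨(e : End K V) * c, A, ?_, hA, ?_⟩
  · rw [map_mul, hd, h1, pow_one, mul_inv_cancel₀ (LinearEquiv.isUnit_det' e).ne_zero]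
  · have h2 : (e : End K V) * A = T * A * e := LinearMap.ext he
    rw [mul_assoc (e : End K V), hc.eq, ← mul_assoc, ← mul_assoc, h2]

/-- Some elementary divisor has exponent one. -/
def ExpOne (s : Multiset (K[X] × ℕ)) : Prop := ∃ x ∈ s, x.2 = 1

theorem comm_of_good [Finite K] {T : End K V} {x : V} {y : Dual K V} (h : Good ExpOne T x y) :
    Comm T := by
  obtain ⟨A, h1, ⟨z, h2, h3⟩, h4, -⟩ := h.exists_sim
  exact comm_of_sim_mul h1 h4 (mem_edN.1 h2).1 h3

theorem exists_transvection {T : End K V} (h : kap T 1 + 1 = finrank K V) :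
    ∃ (f : Dual K V) (u : V), u ≠ 0 ∧ f ≠ 0 ∧ T = LinearMap.transvection f u := by
  have h1 := kap_add_rank T 1
  have h2 : finrank K (LinearMap.range (nc T 1)) = 1 := by omega
  obtain ⟨⟨u, hu⟩, hu0, hu1⟩ := finrank_eq_one_iff'.1 h2
  have hu0' : u ≠ 0 := fun h => hu0 (Subtype.ext h)
  obtain ⟨f, hf⟩ := exists_dual_one (K := K) hu0'
  refine ⟨f ∘ₗ nc T 1, u, hu0', fun h3 => ?_, ?_⟩
  · obtain ⟨v, hv⟩ := hu
    have := LinearMap.congr_fun h3 v
    rw [LinearMap.comp_apply, hv, hf] at this
    exact one_ne_zero this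
  · ext v
    obtain ⟨c, hc⟩ := hu1 ⟨nc T 1 v, v, rfl⟩
    have hc' : c • u = nc T 1 v := congrArg Subtype.val hc
    rw [LinearMap.transvection.apply, LinearMap.comp_apply, ← hc', map_smul, hf, smul_eq_mul,
      mul_one, hc', nc_one_apply]
    simp

theorem finrank_ker_succ' {f : Dual K V} (hf : f ≠ 0) :
    finrank K (LinearMap.ker f) + 1 = finrank K V := by
  obtain ⟨v, hv⟩ : ∃ v, f v ≠ 0 := by
    by_contra h
    push Not at h
    exact hf (LinearMap.ext h)
  exact finrank_ker_succ (e := (f v)⁻¹ • v) (by simp [hv])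

theorem big_zero : Big K 0 0 := fun _ => by
  have := Nat.card_pos (α := K)
  simp

/-- Transvections in dimension at least three are commutators. -/
theorem comm_of_kap {T : End K V} (hn : 3 ≤ finrank K V) (hd : LinearMap.det T = 1)
    (h : kap T 1 + 1 = finrank K V) : Comm T := by
  obtain ⟨f, u, hu, hf, rfl⟩ := exists_transvection h
  rw [LinearMap.transvection.det, add_eq_left] at hd
  have h1 := finrank_ker_succ' hf
  obtain ⟨w, hw, hw'⟩ := SetLike.not_le_iff_exists.1
    (not_le_span (S := LinearMap.ker f) (by omega) u)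
  have hw0 : f w = 0 := hw
  obtain ⟨g, g1, g2, -, -⟩ := exists_functional hu hw' [] [] (by simp) (by simp) big_zero
  refine ⟨LinearMap.transvection g u, LinearMap.transvection f w,
    by rw [LinearMap.transvection.det, g2, add_zero],
    by rw [LinearMap.transvection.det, hw0, add_zero], ?_⟩
  ext v
  simp only [End.mul_apply, LinearMap.transvection.apply, map_add, map_smul, hd, hw0, g1, g2]
  module

theorem det_eq_of_sim {A : End K V} {B : End K W} (h : Sim A B) :
    LinearMap.det A = LinearMap.det B := by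
  obtain ⟨e, he⟩ := h
  rw [← LinearMap.det_conj A e]
  congr 1
  ext w
  simp [he]

/-- Scalars of determinant one are commutators. -/
theorem comm_smul [Finite K] {c : K} (hd : LinearMap.det (c • 1 : End K V) = 1) :
    Comm (c • 1 : End K V) := by
  rw [LinearMap.det_smul, map_one, mul_one] at hd
  rcases Nat.eq_zero_or_pos (finrank K V) with h0 | h0
  · have : Subsingleton V := Module.finrank_zero_iff.1 h0
    rw [Subsingleton.elim (c • 1 : End K V) 1]
    exact comm_one
  obtain ⟨m, hm⟩ := orderOf_dvd_of_pow_eq_one hd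
  have hc : c ^ orderOf c = 1 := pow_orderOf_eq_one c
  generalize hdd : orderOf c = d at hm hc
  have hd0 : d ≠ 0 := by rintro rfl; omega
  have hm0 : m ≠ 0 := by rintro rfl; omega
  have hc0 : c ≠ 0 := by rintro rfl; rw [zero_pow hd0] at hc; exact zero_ne_one hc
  have hdK : (d : K) ≠ 0 := by
    have := Fintype.ofFinite K
    have h1 : d ∣ Fintype.card K - 1 :=
      hdd ▸ orderOf_dvd_of_pow_eq_one (FiniteField.pow_card_sub_one_eq_one c hc0)
    obtain ⟨k, hk⟩ := h1
    intro h2
    have h3 : ((Fintype.card K - 1 : ℕ) : K) = 0 := by rw [hk, Nat.cast_mul, h2, zero_mul]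
    rw [Nat.cast_sub Fintype.card_pos, FiniteField.cast_card_eq_zero] at h3
    simp at h3
  let g : K[X] := X ^ d - C ((-1) ^ (d + 1))
  have hg : g.Monic := monic_X_pow_sub_C _ hd0
  let f : Fin m → K[X] := fun _ => g
  have := finite_model (f := f) fun _ => hg.ne_zero
  have h1 : finrank K (Model f) = finrank K V := by
    rw [finrank_model fun _ => hg.ne_zero, hm]
    simp only [f, g, natDegree_X_pow_sub_C, Finset.sum_const, Finset.card_univ, Fintype.card_fin,
      smul_eq_mul, mul_comm]
  have h2 : LinearMap.det (mulX f) = 1 := by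
    rw [LinearMap.det_eq_sign_charpoly_coeff, charpoly_mulX fun _ => hg, h1, hm]
    simp only [f, g, Finset.prod_const, Finset.card_univ, Fintype.card_fin, coeff_zero_eq_eval_zero,
      eval_pow, eval_sub, eval_X, eval_C, zero_pow hd0, zero_sub]
    rw [pow_mul, ← mul_pow, pow_succ, mul_neg_one, neg_neg, ← mul_pow]
    simp
  have h3 : aeval (mulX f) g = 0 := (aeval_mulX_eq_zero_iff f g).2 fun _ => dvd_rfl
  have h4 : ∀ a : K, a ^ d = 1 → g.eval₂ (Algebra.ofId K (AdjoinRoot g))
      (a • AdjoinRoot.root g) = 0 := fun a ha => by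
    have h5 := AdjoinRoot.eval₂_root g
    simp only [g, eval₂_sub, eval₂_X_pow, eval₂_C] at h5 ⊢
    rw [_root_.smul_pow, ha, one_smul]
    exact h5
  have hc' : c⁻¹ ^ d = 1 := by rw [inv_pow, hc, inv_one]
  let σ : AdjoinRoot g ≃ₐ[K] AdjoinRoot g := AlgEquiv.ofAlgHom
    (AdjoinRoot.liftAlgHom g _ _ (h4 c hc)) (AdjoinRoot.liftAlgHom g _ _ (h4 _ hc'))
    (AdjoinRoot.algHom_ext (by simp [smul_smul, hc0]))
    (AdjoinRoot.algHom_ext (by simp [smul_smul, hc0]))
  have h5 : Sim (mulX f) ((c • 1) * mulX f) := by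
    refine ⟨LinearEquiv.piCongrRight fun _ => σ.toLinearEquiv, fun v => ?_⟩
    ext i
    simp [mulX_apply, σ, f]
  obtain ⟨x, hx⟩ : ∃ x, x ∈ ed (mulX f) := by
    apply Multiset.exists_mem_of_ne_zero
    intro h6
    have h7 := finrank_eq_sum_ed (mulX f)
    rw [h6] at h7
    simp only [Multiset.map_zero, Multiset.sum_zero] at h7
    omega
  refine (comm_of_sim_mul h2 h5.symm hx (ed_exp_eq_one (separable_X_pow_sub_C _ hdK
    (pow_ne_zero _ (by simp))).squarefree h3 hx)).of_sim ?_
  exact ⟨LinearEquiv.ofFinrankEq _ _ h1.symm, fun v => by simp⟩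

theorem charpoly_two (hn : finrank K V = 2) (A : End K V) :
    A.charpoly = X ^ 2 - C (LinearMap.trace K V A) * X + C (LinearMap.det A) := by
  let b := Module.finBasisOfFinrankEq K V hn
  rw [← LinearMap.charpoly_toMatrix A b, Matrix.charpoly_fin_two, LinearMap.det_toMatrix,
    LinearMap.trace_eq_matrix_trace K b]

theorem squarefree_quad {t : K} (ht : t ^ 2 ≠ 4) : Squarefree (X ^ 2 - C t * X + C 1 : K[X]) := by
  apply Separable.squarefree
  have h : t ^ 2 - 4 ≠ 0 := sub_ne_zero.2 ht
  refine ⟨C (-4 / (t ^ 2 - 4)), C (1 / (t ^ 2 - 4)) * (C 2 * X - C t), ?_⟩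
  have h1 : derivative (X ^ 2 - C t * X + C 1 : K[X]) = C 2 * X - C t := by
    simp only [derivative_add, derivative_sub, derivative_X_sq, derivative_C_mul_X, derivative_C,
      add_zero]
  have h2 : (C (-4 / (t ^ 2 - 4)) : K[X]) = -4 * C (1 / (t ^ 2 - 4)) := by
    rw [show (-4 : K[X]) = C (-4) from by simp [map_ofNat], ← C_mul]; congr 1; ring
  have h3 : (C (1 / (t ^ 2 - 4)) : K[X]) * (C t ^ 2 - 4) = 1 := by
    rw [show (4 : K[X]) = C 4 from (map_ofNat C 4).symm, ← C_pow, ← C_sub, ← C_mul, one_div,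
      inv_mul_cancel₀ h, C_1]
  rw [h1, h2, C_1, show (C 2 : K[X]) = 2 from map_ofNat C 2]
  linear_combination h3

/-- The base case in dimension two. -/
theorem good_two (hn : finrank K V = 2) {T A : End K V} (hT : LinearMap.det T = 1)
    (hA : LinearMap.det A = 1) (h1 : LinearMap.trace K V (T * A) = LinearMap.trace K V A)
    (h2 : LinearMap.trace K V A ^ 2 ≠ 4) (x : V) (y : Dual K V) : Good ExpOne T x y := by
  have a1 := charpoly_two hn A
  have a2 := charpoly_two hn (T * A)
  rw [hA] at a1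
  rw [h1, map_mul, hT, hA, one_mul] at a2
  have a3 := squarefree_quad h2
  have a4 : ∀ B : End K V, B.charpoly = X ^ 2 - C (LinearMap.trace K V A) * X + C 1 →
      LinearMap.ker (B - 1) = ⊥ := fun B hB => by
    rw [eq_bot_iff]
    intro v hv
    have b1 : B v = v := sub_eq_zero.1 hv
    have b2 := LinearMap.congr_fun (LinearMap.aeval_self_charpoly B) v
    rw [hB] at b2
    simp only [map_add, map_sub, map_mul, aeval_X, aeval_C, map_one, pow_two, End.mul_apply,
      LinearMap.add_apply, LinearMap.sub_apply, b1, Module.algebraMap_end_apply, End.one_apply,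
      LinearMap.zero_apply] at b2
    have b3 : (2 - LinearMap.trace K V A) • v = 0 := by
      rw [sub_smul, two_smul, ← b2]; abel
    refine (smul_eq_zero.1 b3).resolve_left fun h3 => h2 ?_
    rw [← sub_eq_zero.1 h3]; norm_num
  have a5 : Sim (T * A) A := sim_of_charpoly_eq a3 a3 (a2 ▸ LinearMap.aeval_self_charpoly _)
    (a1 ▸ LinearMap.aeval_self_charpoly _) (a2.trans a1.symm)
  refine ⟨A, hA, ?_, edN_eq_of_sim a5, ?_, fun v hv _ => ?_⟩
  · obtain ⟨z, hz⟩ : ∃ z, z ∈ edN A := by
      apply Multiset.exists_mem_of_ne_zero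
      intro h3
      have h4 := card_edU A
      rw [a4 A a1, finrank_bot, Multiset.card_eq_zero] at h4
      have h5 := finrank_eq_sum_ed A
      rw [← edU_add_edN, h3, h4] at h5
      simp [hn] at h5
    exact ⟨z, hz, ed_exp_eq_one a3 (a1 ▸ LinearMap.aeval_self_charpoly _) (mem_edN.1 hz).1⟩
  · rw [LinearMap.ker_eq_bot_iff_range_eq_top.1 (a4 _ a2), top_sup_eq]
  · have : v ∈ LinearMap.ker (A - 1) := sub_eq_zero.2 hv
    rwa [a4 A a1] at this

theorem exists_not_eig {T : End K V} (hs : ∀ c : K, T ≠ c • 1) : ∃ e, ∀ c : K, T e ≠ c • e := by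
  by_contra h
  push Not at h
  obtain ⟨c, hc⟩ := LinearMap.exists_eq_smul_id_of_forall_notLinearIndependent (f := T) (by
    intro v hv
    obtain ⟨c, hc⟩ := h v
    have := (LinearIndependent.pair_iff.1 hv (-c) 1 (by rw [hc]; simp)).2
    exact one_ne_zero this)
  exact hs c hc

/-- A non-scalar endomorphism of determinant one in dimension two, in companion form. -/
theorem good_two_of_matrix (hn : finrank K V = 2) {T : End K V} (hT : LinearMap.det T = 1)
    (hs : ∀ c : K, T ≠ c • 1) {a b c d : K} (h1 : a * d - b * c = 1)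
    (h2 : -c + b + LinearMap.trace K V T * d = a + d) (h3 : (a + d) ^ 2 ≠ 4) (x : V)
    (y : Dual K V) : Good ExpOne T x y := by
  obtain ⟨e, he⟩ := exists_not_eig hs
  have hli : LinearIndependent K ![e, T e] :=
    LinearIndependent.pair_iff.2 fun s t h => linInd_pair he h
  let B : Basis (Fin 2) K V := basisOfLinearIndependentOfCardEqFinrank hli (by simp [hn])
  have b0 : B 0 = e := by simp [B]
  have b1 : B 1 = T e := by simp [B]
  have a1 : LinearMap.toMatrix B B T 0 0 = 0 := by
    rw [LinearMap.toMatrix_apply, b0, ← b1]; simp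
  have a2 : LinearMap.toMatrix B B T 1 0 = 1 := by
    rw [LinearMap.toMatrix_apply, b0, ← b1]; simp
  have a3 := hT
  rw [← LinearMap.det_toMatrix B, Matrix.det_fin_two, a1, a2] at a3
  have a4 := LinearMap.trace_eq_matrix_trace K B T
  rw [Matrix.trace_fin_two, a1] at a4
  have a5 : LinearMap.trace K V (Matrix.toLin B B !![a, b; c, d]) = a + d := by
    rw [LinearMap.trace_eq_matrix_trace K B, LinearMap.toMatrix_toLin, Matrix.trace_fin_two_of]
  refine good_two hn hT (A := Matrix.toLin B B !![a, b; c, d]) ?_ ?_ (a5 ▸ h3) x y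
  · rw [LinearMap.det_toLin, Matrix.det_fin_two_of, h1]
  · rw [a5, LinearMap.trace_eq_matrix_trace K B, LinearMap.toMatrix_mul, LinearMap.toMatrix_toLin,
      Matrix.trace_fin_two]
    simp only [Matrix.mul_apply, Fin.sum_univ_two, a1, a2, Matrix.of_apply, Matrix.cons_val',
      Matrix.cons_val_zero, Matrix.cons_val_one, Matrix.cons_val_fin_one]
    rw [a4] at h2
    linear_combination h2 - c * a3

theorem exists_sq_ne_one [Finite K] (hK : 4 ≤ Nat.card K) : ∃ l : K, l ≠ 0 ∧ l ^ 2 ≠ 1 := by
  classical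
  by_contra h
  push Not at h
  have := Fintype.ofFinite K
  have h1 : (Finset.univ : Finset K) ⊆ {0, 1, -1} := fun l _ => by
    by_cases h0 : l = 0
    · simp [h0]
    · rcases sq_eq_one_iff.1 (h l h0) with h2 | h2 <;> simp [h2]
  have h2 := (Finset.card_le_card h1).trans Finset.card_le_three
  rw [Finset.card_univ, ← Nat.card_eq_fintype_card] at h2
  omega

theorem good_two_big [Finite K] (hK : 4 ≤ Nat.card K) (hn : finrank K V = 2) {T : End K V}
    (hT : LinearMap.det T = 1) (hs : ∀ c : K, T ≠ c • 1) (x : V) (y : Dual K V) :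
    Good ExpOne T x y := by
  obtain ⟨l, h0, h1⟩ := exists_sq_ne_one hK
  refine good_two_of_matrix hn hT hs (a := l) (b := l + l⁻¹ - LinearMap.trace K V T * l⁻¹) (c := 0)
    (d := l⁻¹) (by simp [h0]) (by ring) (fun h => h1 ?_) x y
  have h2 : (l ^ 2 - 1) ^ 2 = 0 := by
    have h3 : l * l⁻¹ = 1 := mul_inv_cancel₀ h0
    linear_combination l ^ 2 * h - (2 * l ^ 2 + l * l⁻¹ + 1) * h3
  exact sub_eq_zero.1 (pow_eq_zero_iff two_ne_zero |>.1 h2)

end

/-- Finite fields with at least four elements. -/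
theorem comm_big [Finite K] (hK : 4 ≤ Nat.card K) {V : Type u} [AddCommGroup V] [Module K V]
    [FiniteDimensional K V] (hn : 2 ≤ finrank K V) {T : End K V} (hd : LinearMap.det T = 1) :
    Comm T := by
  by_cases hs : ∃ c : K, T = c • 1
  · obtain ⟨c, rfl⟩ := hs
    exact comm_smul hd
  push Not at hs
  rcases hn.eq_or_lt with hn | hn
  · exact comm_of_good (good_two_big hK hn.symm hd hs 0 0)
  have h1 : ∀ c, LinearMap.ker (nc T c) ≠ ⊤ := fun c h =>
    hs c (sub_eq_zero.1 (LinearMap.ker_eq_top.1 h))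
  have h2 : kap T 1 + 1 ≤ finrank K V := finrank_succ_le_of_ne_top (h1 1)
  rcases h2.eq_or_lt with h2 | h2
  · exact comm_of_kap hn hd h2
  obtain ⟨x, y, hx, hy⟩ := exists_ne_zero_pair (K := K) (V := V) (by omega)
  exact comm_of_good (good_of_two (fun _ => hK) (fun _ _ _ _ T x y hn hI _ _ =>
    good_two_big hK hn hI.1 (fun c hc => hI.2.2 c (by rw [hc, nc, sub_self, LinearMap.ker_zero])) x y)
    _ V T x y rfl ⟨hd, h2, h1⟩ hx hy)

end CfsgLib.Ore
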