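import Mathlib
import Cfsg.Agent.Lib.Ore.Comm

/-!
Dimension three over small fields: reduction of a cyclic endomorphism to companion matrices.
-/

set_option autoImplicit false
set_option linter.unusedSectionVars false

namespace CfsgLib.Ore

open Module Submodule Polynomial CfsgLib.MatConj Matrix

variable {K : Type*} [Field K] {V : Type*} [AddCommGroup V] [Module K V] [FiniteDimensional K V]

theorem kap_zero {T : End K V} (hd : LinearMap.det T = 1) : kap T 0 = 0 := by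
  rw [kap, nc, zero_smul, sub_zero, LinearMap.ker_eq_bot.2 (bijective_of_det hd).1, finrank_bot]

theorem ne_zero_smul {T : End K V} (hd : LinearMap.det T = 1) {e : V} {y : Dual K V}
    (hy : y e = 1) : T e ≠ (0 : K) • e := by
  intro h
  rw [zero_smul, ← map_zero T] at h
  rw [(bijective_of_det hd).1 h, map_zero] at hy
  exact zero_ne_one hy

theorem ne_smul_of_notMem {T : End K V} {e : V} {c : K} (h : e ∉ LinearMap.ker (nc T c)) :
    T e ≠ c • e := fun h1 => h (sub_eq_zero.2 h1)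

theorem exists_R (T : End K V) (c : K) (hn : 1 ≤ finrank K V) :
    ∃ S : Submodule K V, finrank K S + 1 ≤ finrank K V ∧
      (1 ≤ kap T c → S = LinearMap.range (nc T c)) := by
  by_cases h : 1 ≤ kap T c
  · exact ⟨_, range_succ_le h, fun _ => rfl⟩
  · exact ⟨⊥, by rw [finrank_bot]; omega, fun h1 => absurd h1 h⟩

theorem linInd_cyclic {T : End K V} {e : V} (hn : finrank K V = 3) (hk : ∀ c, kap T c ≤ 1)
    (hne : ∀ c : K, T e ≠ c • e) (hr : ∀ c, 1 ≤ kap T c → e ∉ LinearMap.range (nc T c)) :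
    LinearIndependent K ![e, T e, T (T e)] := by
  rw [Fintype.linearIndependent_iff]
  intro g hg
  rw [Fin.sum_univ_three] at hg
  simp only [Matrix.cons_val_zero, Matrix.cons_val_one, Matrix.cons_val] at hg
  have g2 : g 2 = 0 := by
    by_contra g2
    let W := span K {e} ⊔ span K {T e}
    have m0 : e ∈ W := mem_sup_left (mem_span_singleton_self _)
    have m1 : T e ∈ W := mem_sup_right (mem_span_singleton_self _)
    have m2 : T (T e) ∈ W := by
      rw [← inv_smul_smul₀ g2 (T (T e)), eq_neg_of_add_eq_zero_right hg]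
      exact smul_mem _ _ (neg_mem (add_mem (smul_mem _ _ m0) (smul_mem _ _ m1)))
    have he0 : e ≠ 0 := fun h => hne 0 (by simp [h])
    have d1 : finrank K W ≤ 2 := by
      have h5 := Submodule.finrank_add_le_finrank_add_finrank (span K {e}) (span K {T e})
      have h6 := finrank_span_le_one (K := K) e
      have h7 := finrank_span_le_one (K := K) (T e)
      exact h5.trans (by omega)
    have d2 : 1 + 1 ≤ finrank K W :=
      succ_le_finrank_sup (finrank_span_singleton he0).ge fun h => by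
        obtain ⟨c, hc⟩ := mem_span_singleton.1 h
        exact hne c hc.symm
    have d3 : W ≠ ⊤ := fun h => by rw [h, finrank_top] at d1; omega
    obtain ⟨w, -, hw⟩ := SetLike.exists_of_lt (lt_top_iff_ne_top.2 d3)
    have d4 : W ⊔ span K {w} = ⊤ := Submodule.eq_top_of_finrank_eq
      (le_antisymm (Submodule.finrank_le _) (hn ▸ succ_le_finrank_sup d2 hw))
    have d5 : ∀ v, ∃ a ∈ W, ∃ s : K, a + s • w = v := fun v => by
      obtain ⟨a, ha, z, hz, h⟩ := mem_sup.1 (d4 ▸ mem_top : v ∈ W ⊔ span K {w})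
      obtain ⟨s, rfl⟩ := mem_span_singleton.1 hz
      exact ⟨a, ha, s, h⟩
    obtain ⟨a, ha, c, hc⟩ := d5 (T w)
    have d6 : LinearMap.range (nc T c) ≤ W := by
      rintro _ ⟨v, rfl⟩
      obtain ⟨b, hb, s, rfl⟩ := d5 v
      obtain ⟨_, h1, _, h2, rfl⟩ := mem_sup.1 hb
      obtain ⟨r, rfl⟩ := mem_span_singleton.1 h1
      obtain ⟨t, rfl⟩ := mem_span_singleton.1 h2
      simp only [map_add, map_smul, nc_apply]
      rw [← hc, add_sub_cancel_right]
      exact add_mem (add_mem (smul_mem _ _ (sub_mem m1 (smul_mem _ _ m0)))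
        (smul_mem _ _ (sub_mem m2 (smul_mem _ _ m1)))) (smul_mem _ _ ha)
    have d7 := kap_add_rank T c
    have d8 := Submodule.finrank_mono d6
    have d9 := hk c
    apply hr c (by omega)
    rw [Submodule.eq_of_le_of_finrank_eq d6 (by omega)]
    exact m0
  rw [g2, zero_smul, add_zero] at hg
  obtain ⟨g0, g1⟩ := linInd_pair hne hg
  intro i
  fin_cases i <;> assumption

/-- The base case in dimension two over the two smallest fields. -/
theorem good_two_small {t : K} (h1 : t ^ 2 ≠ 4) (h2 : -t = t)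
    (h3 : ∃ a b c d : K, a * d - b * c = 1 ∧ -c + b + t * d = a + d ∧ a + d = t)
    (hn : finrank K V = 2) {T : End K V} (hd : LinearMap.det T = 1)
    (hT : LinearMap.trace K V T = t ∨ T = 1 ∨ T = -1) (x : V) (y : Dual K V) :
    Good ExpOne T x y := by
  obtain ⟨a, b, c, d, a1, a2, a3⟩ := h3
  let B := Module.finBasisOfFinrankEq K V hn
  have a4 : LinearMap.det (Matrix.toLin B B !![a, b; c, d]) = 1 := by
    rw [LinearMap.det_toLin, Matrix.det_fin_two_of, a1]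
  have a5 : LinearMap.trace K V (Matrix.toLin B B !![a, b; c, d]) = t := by
    rw [LinearMap.trace_eq_matrix_trace K B, LinearMap.toMatrix_toLin, Matrix.trace_fin_two_of, a3]
  rcases hT with hT | rfl | rfl
  · refine good_two_of_matrix hn hd (fun s hs => h1 ?_) a1 (hT ▸ a2) (a3 ▸ h1) x y
    rw [hs, LinearMap.det_smul, map_one, hn] at hd
    rw [hs, map_smul, LinearMap.trace_one, hn] at hT
    rw [← hT, smul_eq_mul]
    push_cast
    linear_combination 4 * hd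
  · exact good_two hn hd a4 (by rw [one_mul]) (a5 ▸ h1) x y
  · exact good_two hn hd a4 (by rw [neg_one_mul, map_neg, a5, h2]) (a5 ▸ h1) x y

/-- The companion matrix of determinant one. -/
def cm (a b : K) : Matrix (Fin 3) (Fin 3) K := !![0, 0, 1; 1, 0, a; 0, 1, b]

/-- A reduction step of the companion matrix that ends in trace `t` or in `±1`. -/
def Cond (t a b : K) (p : (Fin 3 → K) × (Fin 3 → K)) : Prop :=
  p.2 ⬝ᵥ p.1 = 1 ∧ p.2 ⬝ᵥ (cm a b *ᵥ p.1) = 1 ∧ (b - p.2 ⬝ᵥ (cm a b *ᵥ (cm a b *ᵥ p.1)) = t ∨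
    (∀ w, p.2 ⬝ᵥ w = 0 → cm a b *ᵥ w - (p.2 ⬝ᵥ (cm a b *ᵥ w)) • (cm a b *ᵥ p.1) = w) ∨
    ∀ w, p.2 ⬝ᵥ w = 0 → cm a b *ᵥ w - (p.2 ⬝ᵥ (cm a b *ᵥ w)) • (cm a b *ᵥ p.1) = -w)

instance [Fintype K] [DecidableEq K] (t a b : K) (p : (Fin 3 → K) × (Fin 3 → K)) :
    Decidable (Cond t a b p) := by
  unfold Cond
  infer_instance

theorem good_cm {t : K} (h1 : t ^ 2 ≠ 4) (h2 : -t = t)
    (h3 : ∃ a b c d : K, a * d - b * c = 1 ∧ -c + b + t * d = a + d ∧ a + d = t) {a b : K}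
    {p : (Fin 3 → K) × (Fin 3 → K)} (hp : Cond t a b p) {x : Fin 3 → K} {y : Dual K (Fin 3 → K)}
    (hx : p.2 ⬝ᵥ x ≠ 0) (hy : y p.1 ≠ 0) : Good ExpOne (toLin' (cm a b)) x y := by
  obtain ⟨a1, a2, a3⟩ := hp
  let φ : Dual K (Fin 3 → K) := dotProductBilin K K p.2
  have hd : LinearMap.det (toLin' (cm a b)) = 1 := by
    rw [LinearMap.det_toLin', cm, Matrix.det_fin_three]
    simp
  have he : φ p.1 = 1 := a1
  have hT : φ (toLin' (cm a b) p.1) = 1 := a2
  have hn := finrank_ker_succ he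
  rw [Module.finrank_fin_fun] at hn
  refine Good.lift hd he hT hx hy (good_two_small h1 h2 h3 (by omega)
    (by rw [det_red _ he hT, hd]) ?_ _ _)
  refine a3.imp (fun h => ?_) (Or.imp (fun h => ?_) fun h => ?_)
  · rw [trace_red, ← h, Matrix.trace_toLin'_eq, cm, Matrix.trace_fin_three_of]
    simp only [zero_add]
    rfl
  · exact LinearMap.ext fun w => Subtype.ext (h w w.2)
  · exact LinearMap.ext fun w => Subtype.ext (h w w.2)

theorem good_three {t : K} (h1 : t ^ 2 ≠ 4) (h2 : -t = t)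
    (h3 : ∃ a b c d : K, a * d - b * c = 1 ∧ -c + b + t * d = a + d ∧ a + d = t)
    (H : ∀ (a b : K) (x y : Fin 3 → K), x ≠ 0 → y ≠ 0 →
      ∃ p, Cond t a b p ∧ p.2 ⬝ᵥ x ≠ 0 ∧ y ⬝ᵥ p.1 ≠ 0)
    (hn : finrank K V = 3) {T : End K V} (hd : LinearMap.det T = 1) {e : V}
    (hli : LinearIndependent K ![e, T e, T (T e)]) {x : V} {y : Dual K V} (hx : x ≠ 0)
    (hy : y ≠ 0) : Good ExpOne T x y := by
  let B : Basis (Fin 3) K V := basisOfLinearIndependentOfCardEqFinrank hli (by simp [hn])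
  have b0 : B 0 = e := by simp [B]
  have b1 : B 1 = T (B 0) := by simp [B]
  have b2 : B 2 = T (B 1) := by simp [B]
  have c0 : ∀ i, LinearMap.toMatrix B B T i 0 = if i = 1 then 1 else 0 := fun i => by
    rw [LinearMap.toMatrix_apply, ← b1, B.repr_self, Finsupp.single_apply]
    simp only [eq_comm]
  have c1 : ∀ i, LinearMap.toMatrix B B T i 1 = if i = 2 then 1 else 0 := fun i => by
    rw [LinearMap.toMatrix_apply, ← b2, B.repr_self, Finsupp.single_apply]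
    simp only [eq_comm]
  have c2 : LinearMap.toMatrix B B T 0 2 = 1 := by
    rw [← LinearMap.det_toMatrix B, Matrix.det_fin_three] at hd
    simpa [c0, c1] using hd
  have c3 : LinearMap.toMatrix B B T =
      cm (LinearMap.toMatrix B B T 1 2) (LinearMap.toMatrix B B T 2 2) := by
    ext i j
    fin_cases i <;> fin_cases j <;> simp [cm, c0, c1, c2]
  obtain ⟨p, p1, p2, p3⟩ := H (LinearMap.toMatrix B B T 1 2) (LinearMap.toMatrix B B T 2 2)
    (B.equivFun x) (fun i => y (B i)) (by simpa using hx) (fun h => hy (B.ext fun i => congrFun h i))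
  refine Good.of_equiv B.equivFun (fun v => ?_) (good_cm h1 h2 h3 p1 p2 ?_)
  · rw [← c3, toLin'_apply]
    exact (LinearMap.toMatrix_mulVec_repr B B T v).symm
  · simpa [dotProduct, mul_comm] using p3

/-- Candidates over the field with two elements. -/
def cands2 : Fin 2 → Fin 2 → List ((Fin 3 → ZMod 2) × (Fin 3 → ZMod 2)) :=
  ![![[(![0, 0, 1], ![1, 1, 1]), (![1, 1, 1], ![0, 0, 1]), (![1, 0, 1], ![0, 1, 1]),
        (![0, 1, 1], ![1, 1, 0]), (![1, 1, 0], ![1, 0, 1]), (![0, 1, 0], ![1, 1, 1]),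
        (![1, 1, 1], ![0, 1, 0])],
      [(![0, 0, 1], ![0, 1, 1]), (![0, 1, 0], ![1, 1, 1]), (![1, 0, 0], ![1, 1, 0]),
        (![1, 1, 0], ![0, 1, 0]), (![0, 1, 1], ![1, 0, 1]), (![1, 0, 1], ![0, 0, 1]),
        (![1, 1, 1], ![1, 0, 0])]],
    ![[(![0, 0, 1], ![1, 0, 1]), (![0, 1, 0], ![0, 1, 1]), (![1, 0, 0], ![1, 1, 1]),
        (![0, 1, 1], ![0, 0, 1]), (![1, 0, 1], ![1, 1, 0]), (![1, 1, 0], ![0, 1, 0]),
        (![1, 1, 1], ![1, 0, 0])],
      [(![0, 0, 1], ![0, 0, 1]), (![0, 1, 0], ![0, 1, 1]), (![1, 0, 0], ![1, 1, 0]),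
        (![1, 1, 1], ![1, 0, 0]), (![0, 1, 1], ![0, 1, 0]), (![1, 1, 0], ![1, 0, 1])]]]

/-- Candidates over the field with three elements. -/
def cands3 : Fin 3 → Fin 3 → List ((Fin 3 → ZMod 3) × (Fin 3 → ZMod 3)) :=
  ![![[(![0, 0, 1], ![1, 0, 1]), (![0, 1, 0], ![0, 1, 1]), (![1, 0, 0], ![1, 1, 0]),
        (![0, 1, 1], ![0, 0, 1]), (![1, 1, 2], ![2, 1, 2]), (![1, 0, 1], ![1, 0, 0])],
      [(![0, 0, 1], ![0, 0, 1]), (![0, 1, 0], ![0, 1, 1]), (![1, 0, 0], ![1, 1, 1]),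
        (![1, 1, 2], ![2, 0, 1]), (![1, 1, 1], ![0, 1, 0]), (![1, 2, 0], ![2, 1, 0])],
      [(![0, 0, 1], ![2, 0, 1]), (![0, 1, 0], ![0, 1, 1]), (![1, 0, 0], ![1, 1, 2]),
        (![0, 1, 2], ![0, 0, 2]), (![1, 0, 2], ![1, 2, 0]), (![1, 1, 0], ![2, 2, 2])]],
    ![[(![0, 0, 1], ![2, 2, 1]), (![0, 1, 0], ![2, 1, 1]), (![1, 0, 0], ![1, 1, 0]),
        (![0, 1, 1], ![0, 2, 2]), (![1, 1, 2], ![0, 2, 1]), (![1, 0, 1], ![1, 0, 0])],
      [(![0, 0, 1], ![1, 2, 1]), (![0, 1, 0], ![2, 1, 1]), (![1, 0, 0], ![1, 1, 1]),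
        (![1, 1, 1], ![1, 1, 2]), (![1, 2, 0], ![0, 2, 1]), (![0, 1, 1], ![2, 0, 1])],
      [(![0, 0, 1], ![0, 2, 1]), (![0, 1, 0], ![2, 1, 1]), (![1, 0, 0], ![1, 1, 2]),
        (![1, 1, 2], ![0, 0, 2]), (![1, 0, 1], ![1, 0, 0]), (![0, 1, 1], ![0, 1, 0])]],
    ![[(![0, 0, 1], ![2, 1, 1]), (![0, 1, 0], ![1, 1, 1]), (![1, 0, 0], ![1, 1, 0]),
        (![1, 2, 2], ![0, 2, 0]), (![0, 1, 2], ![1, 0, 2]), (![1, 1, 1], ![0, 0, 1])],
      [(![0, 0, 1], ![1, 1, 1]), (![1, 0, 1], ![0, 0, 1]), (![0, 1, 2], ![0, 1, 0]),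
        (![1, 1, 1], ![2, 1, 1]), (![1, 0, 2], ![2, 2, 1]), (![0, 1, 0], ![1, 1, 1]),
        (![1, 0, 1], ![0, 1, 1])],
      [(![0, 0, 1], ![0, 1, 1]), (![0, 1, 0], ![1, 1, 1]), (![1, 0, 0], ![1, 1, 2]),
        (![1, 1, 1], ![1, 2, 1]), (![0, 1, 2], ![0, 2, 1]), (![1, 0, 2], ![1, 1, 0])]]]

theorem cond2 : ∀ a b : ZMod 2, ∀ p ∈ cands2 a b, Cond 1 a b p := by decide +kernel

set_option synthInstance.maxSize 1024 in
theorem cover2 : ∀ (a b : ZMod 2) (x y : Fin 3 → ZMod 2), x ≠ 0 → y ≠ 0 →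
    ∃ p ∈ cands2 a b, p.2 ⬝ᵥ x ≠ 0 ∧ y ⬝ᵥ p.1 ≠ 0 := by decide +kernel

theorem cond3 : ∀ a b : ZMod 3, ∀ p ∈ cands3 a b, Cond 0 a b p := by decide +kernel

set_option synthInstance.maxSize 1024 in
theorem cover3 : ∀ (a b : ZMod 3) (x y : Fin 3 → ZMod 3), x ≠ 0 → y ≠ 0 →
    ∃ p ∈ cands3 a b, p.2 ⬝ᵥ x ≠ 0 ∧ y ⬝ᵥ p.1 ≠ 0 := by decide +kernel

theorem good_three_two {V : Type*} [AddCommGroup V] [Module (ZMod 2) V]
    [FiniteDimensional (ZMod 2) V] (hn : finrank (ZMod 2) V = 3) {T : End (ZMod 2) V}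
    (hd : LinearMap.det T = 1) {e : V} (hli : LinearIndependent (ZMod 2) ![e, T e, T (T e)])
    {x : V} {y : Dual (ZMod 2) V} (hx : x ≠ 0) (hy : y ≠ 0) : Good ExpOne T x y :=
  good_three (t := 1) (by decide) (by decide) (by decide) (fun a b x y hx hy =>
    (cover2 a b x y hx hy).imp fun p hp => ⟨cond2 a b p hp.1, hp.2⟩) hn hd hli hx hy

theorem good_three_three {V : Type*} [AddCommGroup V] [Module (ZMod 3) V]
    [FiniteDimensional (ZMod 3) V] (hn : finrank (ZMod 3) V = 3) {T : End (ZMod 3) V}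
    (hd : LinearMap.det T = 1) {e : V} (hli : LinearIndependent (ZMod 3) ![e, T e, T (T e)])
    {x : V} {y : Dual (ZMod 3) V} (hx : x ≠ 0) (hy : y ≠ 0) : Good ExpOne T x y :=
  good_three (t := 0) (by decide) (by decide) (by decide) (fun a b x y hx hy =>
    (cover3 a b x y hx hy).imp fun p hp => ⟨cond3 a b p hp.1, hp.2⟩) hn hd hli hx hy

end CfsgLib.Ore
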