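import Mathlib
import Cfsg.Agent.Lib.Ore.Three

/-!
Commutators in the special linear groups over the field with three elements.
-/

set_option autoImplicit false
set_option linter.unusedSectionVars false

namespace CfsgLib.Ore

open Module Submodule Polynomial CfsgLib.MatConj Matrix

universe u

section

variable {K : Type*} [Field K] {V : Type*} [AddCommGroup V] [Module K V] [FiniteDimensional K V]

/-- The invariant over the field with three elements. -/
def Inv3 (T : End K V) : Prop :=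
  LinearMap.det T = 1 ∧ kap T 1 + 2 ≤ finrank K V ∧ kap T (-1) + 2 ≤ finrank K V

theorem exists_S {T : End K V} {e : V} {c : K} (h : finrank K (kc T e c) + 2 ≤ finrank K V) :
    ∃ S : Submodule K V, (S = ⊤ ∨ S = kc T e c ∧ finrank K S + 2 = finrank K V) ∧
      ∀ φ : Dual K V, ¬ S ≤ LinearMap.ker φ →
        finrank K ↥(LinearMap.ker φ ⊓ kc T e c) + 3 ≤ finrank K V := by
  rcases h.eq_or_lt with h | h
  · refine ⟨_, Or.inr ⟨rfl, h⟩, fun φ hφ => ?_⟩
    have := finrank_inf_succ_le hφ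
    omega
  · refine ⟨⊤, Or.inl rfl, fun φ _ => ?_⟩
    have := Submodule.finrank_mono (inf_le_right : LinearMap.ker φ ⊓ kc T e c ≤ _)
    omega

theorem kap_red {T : End K V} {e : V} {φ : Dual K V} (hT : φ (T e) = 1) (c : K) :
    kap (red T hT) c = finrank K ↥(LinearMap.ker φ ⊓ kc T e c) := finrank_ker_red T hT c

theorem step_inv3 (h2 : (2 : K) ≠ 0) (h3 : ∀ c : K, c = 0 ∨ c = 1 ∨ c = -1) (hK : Big K 2 2)
    {T : End K V} (hI : Inv3 T) {x : V} {y : Dual K V} (hx : x ≠ 0) (hy : y ≠ 0)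
    (hn : 4 ≤ finrank K V) : Step (fun _ T' _ => Inv3 T') T x y := by
  obtain ⟨hd, k1, k2⟩ := hI
  have hb := bijective_of_det hd
  have r1 := kap_add_rank T 1
  have h1 : (-1 : K) ≠ 1 := fun h => h2 (by linear_combination -h)
  obtain ⟨A, a1, a2, a3⟩ : ∃ A : Submodule K V, finrank K A + 1 ≤ finrank K V ∧
      (∀ e, e ∉ A → 1 ≤ kap T (-1) → e ∉ LinearMap.range (nc T (-1))) ∧
      ∀ e, e ∉ A → nc T 1 (nc T 1 e) = 0 → ∀ v, nc T 1 (nc T 1 v) = 0 := by
    by_cases h : 1 ≤ kap T (-1)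
    · refine ⟨_, range_succ_le h, fun e he _ => he, fun e he h4 => absurd ?_ he⟩
      refine ⟨(2⁻¹ * 2⁻¹ : K) • ((2 : K) • e - nc T 1 e), ?_⟩
      have h5 : ∀ v, nc T (-1) v = nc T 1 v + (2 : K) • v := fun v => by
        simp only [nc_apply]; module
      rw [map_smul, h5, map_sub, map_smul, h4, sub_zero, smul_sub, add_sub_cancel, smul_smul,
        smul_smul]
      field_simp
      exact one_smul _ _
    · by_cases h4 : LinearMap.ker (nc T 1 * nc T 1) = ⊤
      · exact ⟨⊥, by rw [finrank_bot]; omega, fun _ _ h5 => absurd h5 h,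
          fun _ _ _ v => (h4 ▸ mem_top : v ∈ LinearMap.ker (nc T 1 * nc T 1))⟩
      · exact ⟨_, finrank_succ_le_of_ne_top h4, fun _ _ h5 => absurd h5 h,
          fun e he h5 => absurd h5 he⟩
  obtain ⟨B, a4, a5⟩ : ∃ B : Submodule K V, finrank K B + 2 ≤ finrank K V ∧
      ∀ e, e ∉ B → kap T 1 + 2 = finrank K V → e ∉ LinearMap.range (nc T 1) := by
    by_cases h : kap T 1 + 2 = finrank K V
    · exact ⟨_, by omega, fun e he _ => he⟩
    · exact ⟨⊥, by rw [finrank_bot]; omega, fun _ _ h5 => absurd h5 h⟩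
  have a6 : finrank K ((span K {x}).comap (nc T 1)) ≤ kap T 1 + 1 := finrank_comap_span_le _ _
  obtain ⟨e, b1, b2, b3⟩ := exists_avoid y hy [(span K {x}).comap (nc T 1), A]
    [B, LinearMap.ker (nc T (-1))] (by simpa using ⟨by omega, a1⟩) (by simpa using ⟨a4, k2⟩) hK
  simp only [List.mem_cons, List.not_mem_nil, or_false, forall_eq_or_imp, forall_eq] at b2 b3
  have b4 : ∀ c : K, T e ≠ c • e := fun c => by
    rcases h3 c with rfl | rfl | rfl
    · exact ne_zero_smul hd b1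
    · exact ne_smul_of_notMem fun h => b2.1 (LinearMap.ker_le_comap _ h)
    · exact ne_smul_of_notMem b3.2
  have b5 := a2 e b2.2
  have b6 := a3 e b2.2
  have b7 := a5 e b3.1
  have c0 := finrank_kc_le T e (-1)
  obtain ⟨S₁, c1, c2⟩ := exists_S (finrank_kc_one hb k1 b7)
  obtain ⟨S₂, c3, c4⟩ := exists_S (T := T) (e := e) (c := -1) (by
    by_cases h : 1 ≤ kap T (-1)
    · rw [kc_eq_ker hb (b5 h)]; exact k2
    · omega)
  have d0 := nc_ne_zero b4 1
  have d1 := two_le_finrank_sup d0 (not_span_le hx b2.1)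
  have d2 : 2 ≤ finrank K ↥(LinearMap.range (nc T 1) ⊔ span K {nc T 1 e}) :=
    le_finrank_sup _ (by omega)
  have key : ∀ (S : Submodule K V) (c : K), (S = ⊤ ∨ S = kc T e c ∧ finrank K S + 2 = finrank K V) →
      2 ≤ finrank K ↥(S ⊔ span K {nc T 1 e}) ∧ (3 ≤ finrank K ↥(S ⊔ span K {nc T 1 e}) ∨
        S = kc T e c ∧ finrank K S + 2 = finrank K V ∧ nc T 1 e ∈ kc T e c) := by
    rintro S c (rfl | ⟨rfl, h⟩)
    · exact ⟨le_finrank_sup _ (by rw [finrank_top]; omega),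
        Or.inl (le_finrank_sup _ (by rw [finrank_top]; omega))⟩
    · refine ⟨le_finrank_sup _ (by omega), ?_⟩
      by_cases h4 : nc T 1 e ∈ kc T e c
      · exact Or.inr ⟨rfl, h, h4⟩
      · exact Or.inl (succ_le_finrank_sup (by omega) h4)
  obtain ⟨d3, d4⟩ := key S₁ 1 c1
  obtain ⟨d5, d6⟩ := key S₂ (-1) c3
  have d7 : nc T 1 e ∈ kc T e 1 → nc T 1 e ∈ kc T e (-1) → False := fun h4 h5 => by
    obtain ⟨s, hs⟩ := mem_kc.1 h4
    obtain ⟨t, ht⟩ := mem_kc.1 h5
    have h6 : (2 : K) • e + (t - s - 2) • T e = 0 := by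
      rw [sub_smul, sub_smul, ht, hs, nc_one_apply]; module
    exact h2 (linInd_pair b4 h6).1
  obtain ⟨φ, e1, e2, e3, e4, e5, e6⟩ : ∃ φ : Dual K V, φ e = 1 ∧ φ (nc T 1 e) = 0 ∧
      ¬ span K {x} ≤ LinearMap.ker φ ∧ ¬ LinearMap.range (nc T 1) ≤ LinearMap.ker φ ∧
      ¬ S₁ ≤ LinearMap.ker φ ∧ ¬ S₂ ≤ LinearMap.ker φ := by
    have gen : ∀ P Q R : Submodule K V, 2 ≤ finrank K ↥(P ⊔ span K {nc T 1 e}) →
        3 ≤ finrank K ↥(Q ⊔ span K {nc T 1 e}) → 3 ≤ finrank K ↥(R ⊔ span K {nc T 1 e}) →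
        ∃ φ : Dual K V, φ e = 1 ∧ φ (nc T 1 e) = 0 ∧ ¬ span K {x} ≤ LinearMap.ker φ ∧
          ¬ P ≤ LinearMap.ker φ ∧ ¬ Q ≤ LinearMap.ker φ ∧ ¬ R ≤ LinearMap.ker φ := by
      intro P Q R hP hQ hR
      obtain ⟨φ, e1, e2, e3, e4⟩ := exists_functional d0 (notMem_span_nc b4) [span K {x}, P] [Q, R]
        (by simpa using ⟨d1, hP⟩) (by simpa using ⟨hQ, hR⟩) hK
      simp only [List.mem_cons, List.not_mem_nil, or_false, forall_eq_or_imp, forall_eq] at e3 e4
      exact ⟨φ, e1, e2, e3.1, e3.2, e4.1, e4.2⟩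
    by_cases hr : kap T 1 + 2 = finrank K V
    · have f1 := kc_eq_ker hb (b7 hr)
      rcases d4 with d4 | d4 <;> rcases d6 with d6 | d6
      · exact gen _ _ _ d2 d4 d6
      · obtain ⟨φ, e1, e2, e3, e4, e5, -⟩ := gen _ _ _ d5 d4 d4
        refine ⟨φ, e1, e2, e3, fun h => e4 (le_trans ?_ h), e5, e4⟩
        have f2 := d6.2.1
        rw [d6.1] at f2
        rw [d6.1, kc_eq_ker hb (b5 (by omega))]
        exact fun v hv => eig_mem_range (sub_eq_zero.1 hv) h1
      · obtain ⟨φ, e1, e2, e3, e4, e5, -⟩ := gen _ _ _ d2 d6 d6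
        refine ⟨φ, e1, e2, e3, e4, fun h => e4 (le_trans ?_ h), e5⟩
        have f2 := d4.2.2
        rw [f1] at f2
        rw [d4.1, f1]
        rintro _ ⟨v, rfl⟩
        exact b6 f2 v
      · exact (d7 d4.2.2 d6.2.2).elim
    · have f1 : 3 ≤ finrank K ↥(LinearMap.range (nc T 1) ⊔ span K {nc T 1 e}) :=
        le_finrank_sup _ (by omega)
      rcases d4 with d4 | d4
      · obtain ⟨φ, e1, e2, e3, e4, e5, e6⟩ := gen _ _ _ d5 f1 d4
        exact ⟨φ, e1, e2, e3, e5, e6, e4⟩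
      · obtain ⟨φ, e1, e2, e3, e4, e5, e6⟩ := gen _ _ _ d3 f1
          (d6.resolve_right fun h => d7 d4.2.2 h.2.2)
        exact ⟨φ, e1, e2, e3, e5, e4, e6⟩
  refine step_mk b1 d0 e1 e2 e3 e4 fun hT => ⟨by rw [det_red T e1 hT, hd], ?_, ?_⟩
  · have := finrank_ker_succ e1
    have := c2 φ e5
    rw [kap_red]; omega
  · have := finrank_ker_succ e1
    have := c4 φ e6
    rw [kap_red]; omega

theorem exists_cyclic3 (h3 : ∀ c : K, c = 0 ∨ c = 1 ∨ c = -1) (hK : Big K 2 2) {T : End K V}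
    (hI : Inv3 T) (hn : finrank K V = 3) : ∃ e, LinearIndependent K ![e, T e, T (T e)] := by
  obtain ⟨hd, k1, k2⟩ := hI
  obtain ⟨-, y, -, hy⟩ := exists_ne_zero_pair (K := K) (V := V) (by omega)
  obtain ⟨A, a1, a2⟩ := exists_R T 1 (by omega)
  obtain ⟨B, a3, a4⟩ := exists_R T (-1) (by omega)
  obtain ⟨e, b1, b2, b3⟩ := exists_avoid y hy [A, B]
    [LinearMap.ker (nc T 1), LinearMap.ker (nc T (-1))] (by simpa using ⟨a1, a3⟩)
    (by simpa using ⟨k1, k2⟩) hK
  simp only [List.mem_cons, List.not_mem_nil, or_false, forall_eq_or_imp, forall_eq] at b2 b3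
  have k0 := kap_zero hd
  refine ⟨e, linInd_cyclic hn (fun c => ?_) (fun c => ?_) fun c => ?_⟩ <;>
    rcases h3 c with rfl | rfl | rfl
  · omega
  · omega
  · omega
  · exact ne_zero_smul hd b1
  · exact ne_smul_of_notMem b3.1
  · exact ne_smul_of_notMem b3.2
  · omega
  · exact fun h => a2 h ▸ b2.1
  · exact fun h => a4 h ▸ b2.2

theorem Sim.neg' {W : Type*} [AddCommGroup W] [Module K W] {A : End K V} {B : End K W}
    (h : Sim (-A) (-B)) : Sim A B := by
  obtain ⟨e, he⟩ := h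
  exact ⟨e, fun v => by simpa using he v⟩

theorem kap_neg (T : End K V) : kap (-T) 1 = kap T (-1) := by
  have : nc (-T) 1 = -nc T (-1) := by ext v; simp only [LinearMap.neg_apply, nc_apply]; module
  rw [kap, this, LinearMap.ker_neg]

/-- Negatives of reflections in odd dimension. -/
theorem comm_of_kap_odd [Finite K] (h2 : (2 : K) ≠ 0) {T : End K V} (hd : LinearMap.det T = 1)
    (h : kap T (-1) + 1 = finrank K V) (hn : Odd (finrank K V)) : Comm T := by
  obtain ⟨f, u, hu, hf, hT⟩ := exists_transvection (T := -T) (by rw [kap_neg, h])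
  have h1 : LinearMap.det (-T) = -1 := by
    rw [← neg_one_smul K T, LinearMap.det_smul, hd, hn.neg_one_pow, mul_one]
  rw [hT, LinearMap.transvection.det] at h1
  have h3 : ∀ v, T v = -(v + f v • u) := fun v => by
    rw [← LinearMap.transvection.apply, ← hT, LinearMap.neg_apply, neg_neg]
  have h4 : f u = -2 := by linear_combination h1
  have h5 : ∀ v ∈ LinearMap.ker f, T v = -v := fun v hv => by
    have : f v = 0 := hv
    rw [h3, this, zero_smul, add_zero]
  have h6 : ∀ v ∈ span K {u}, T v = v := fun v hv => by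
    obtain ⟨t, rfl⟩ := mem_span_singleton.1 hv
    rw [map_smul, h3, h4]; module
  have h7 : IsCompl (LinearMap.ker f) (span K {u}) := by
    refine Module.Dual.isCompl_ker_of_disjoint_of_ne_bot hf ?_ (by simpa using hu)
    rw [disjoint_span_singleton' hu, LinearMap.mem_ker, h4]
    simpa using h2
  have h8 := ed_eq_add_of_isCompl T h7 (fun v hv => h5 v hv ▸ neg_mem hv)
    fun v hv => (h6 v hv).symm ▸ hv
  refine comm_of_ed h8 ?_ ?_
  · rw [show T.restrict _ = (-1 : K) • 1 from LinearMap.ext fun v => Subtype.ext (by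
      simpa using h5 v v.2)]
    apply comm_smul
    have := finrank_ker_succ' hf
    rw [LinearMap.det_smul, map_one, mul_one]
    exact Even.neg_one_pow (by rw [← this, Nat.odd_add_one, Nat.not_odd_iff_even] at hn; exact hn)
  · exact comm_one.of_sim ⟨LinearEquiv.refl _ _, fun v => Subtype.ext (h6 v v.2)⟩

end

theorem zmod3_cases : ∀ c : ZMod 3, c = 0 ∨ c = 1 ∨ c = -1 := by decide

theorem big_zmod3 : Big (ZMod 3) 2 2 := fun _ => by rw [Nat.card_zmod]; norm_num

theorem good_inv3 (n : ℕ) : ∀ (V : Type u) [AddCommGroup V] [Module (ZMod 3) V]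
    [FiniteDimensional (ZMod 3) V] (T : End (ZMod 3) V) (x : V) (y : Dual (ZMod 3) V),
    finrank (ZMod 3) V = n + 3 → Inv3 T → x ≠ 0 → y ≠ 0 → Good ExpOne T x y := by
  induction n with
  | zero =>
    intro V _ _ _ T x y hn hI hx hy
    obtain ⟨e, he⟩ := exists_cyclic3 zmod3_cases big_zmod3 hI hn
    exact good_three_three hn hI.1 he hx hy
  | succ n ih =>
    intro V _ _ _ T x y hn hI hx hy
    exact (step_inv3 (by decide) zmod3_cases big_zmod3 hI hx hy (by omega)).good hI.1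
      fun φ T' x' y' h1 h3 h4 h5 => ih _ T' x' y' (by omega) h3 h4 h5

theorem comm_neg_four :
    Comm (toLin' (!![2, 2, 0, 0; 0, 2, 0, 0; 0, 0, 2, 0; 0, 0, 0, 2] : Matrix _ _ (ZMod 3))) := by
  refine ⟨toLin' !![1, 0, 0, 0; 0, 2, 0, 0; 0, 0, 2, 0; 0, 0, 0, 1],
    toLin' !![0, 0, 2, 1; 0, 0, 0, 1; 2, 0, 0, 0; 0, 1, 0, 0], ?_, ?_, ?_⟩
  · rw [LinearMap.det_toLin']; decide +kernel
  · rw [LinearMap.det_toLin']; decide +kernel
  · simp only [End.mul_eq_comp, ← toLin'_mul]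
    congr 1
    decide +kernel

/-- The field with three elements. -/
theorem comm_three {V : Type u} [AddCommGroup V] [Module (ZMod 3) V] [FiniteDimensional (ZMod 3) V]
    (hn : 3 ≤ finrank (ZMod 3) V) {T : End (ZMod 3) V} (hd : LinearMap.det T = 1) : Comm T := by
  by_cases hs : ∃ c : ZMod 3, T = c • 1
  · obtain ⟨c, rfl⟩ := hs
    exact comm_smul hd
  have h1 : ∀ c, kap T c + 1 ≤ finrank (ZMod 3) V := fun c => finrank_succ_le_of_ne_top fun h =>
    hs ⟨c, sub_eq_zero.1 (LinearMap.ker_eq_top.1 h)⟩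
  rcases (h1 1).eq_or_lt with h2 | h2
  · exact comm_of_kap hn hd h2
  rcases (h1 (-1)).eq_or_lt with h3 | h3
  swap
  · obtain ⟨x, y, hx, hy⟩ := exists_ne_zero_pair (K := ZMod 3) (V := V) (by omega)
    exact comm_of_good (good_inv3 (finrank (ZMod 3) V - 3) V T x y (by omega) ⟨hd, h2, h3⟩ hx hy)
  rcases Nat.even_or_odd (finrank (ZMod 3) V) with h4 | h4
  swap
  · exact comm_of_kap_odd (by decide) hd h3 h4
  obtain ⟨m, hm⟩ : ∃ m, finrank (ZMod 3) V = 4 + 2 * m := by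
    obtain ⟨k, hk⟩ := h4
    exact ⟨k - 2, by omega⟩
  have h5 : Comm ((-1 : ZMod 3) • 1 : End (ZMod 3) (Fin (2 * m) → ZMod 3)) :=
    comm_smul (by simp [LinearMap.det_smul])
  refine (comm_neg_four.prodMap h5).of_sim (Sim.neg' ?_)
  have h6 : -(toLin' (!![2, 2, 0, 0; 0, 2, 0, 0; 0, 0, 2, 0; 0, 0, 0, 2] :
      Matrix _ _ (ZMod 3))).prodMap ((-1 : ZMod 3) • 1 : End (ZMod 3) (Fin (2 * m) → ZMod 3)) - 1 =
      ((LinearMap.proj 1).smulRight (Pi.single 0 1)).prodMap 0 := by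
    refine LinearMap.ext fun v => Prod.ext (funext fun i => ?_) (by simp)
    have h7 : (2 : ZMod 3) = -1 := by decide
    fin_cases i <;> simp [h7, Matrix.vecHead, Matrix.vecTail]
  refine sim_of_sq_zero (by simp [hm]) (sq_zero_of_kap ?_ (by rw [kap_neg, h3])) ?_ ?_
  · rw [← neg_one_smul (ZMod 3) T, LinearMap.det_smul, hd, h4.neg_one_pow, mul_one]
  · rw [h6]
    exact LinearMap.ext fun v => by simp [pow_two]
  · have h7 := finrank_ker_succ' (K := ZMod 3) (f := (LinearMap.proj 1 : (Fin 4 → ZMod 3) →ₗ[_] _))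
      fun h => by simpa using LinearMap.congr_fun h 1
    have h8 := kap_neg T
    rw [kap, nc_one] at h8
    have h9 : LinearMap.ker ((LinearMap.proj 1 : (Fin 4 → ZMod 3) →ₗ[ZMod 3] _).smulRight
        (Pi.single 0 1 : Fin 4 → ZMod 3)) = LinearMap.ker (LinearMap.proj 1) := by
      ext v; simp
    rw [h6, finrank_ker_prodMap, h9, LinearMap.ker_zero, h8]
    simp only [finrank_top, Module.finrank_fin_fun] at h7 ⊢
    omega

end CfsgLib.Ore
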