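import Mathlib
import Cfsg.Agent.Lib.Ore.Q3

/-!
Commutators in the special linear groups over the field with two elements.
-/

set_option autoImplicit false
set_option linter.unusedSectionVars false

namespace CfsgLib.Ore

open Module Submodule Polynomial CfsgLib.MatConj Matrix

universe u

section

variable {K : Type*} [Field K] {V : Type*} [AddCommGroup V] [Module K V] [FiniteDimensional K V]

theorem step_inv2 (h2 : ∀ c : K, c = 0 ∨ c = 1) (hK : Big K 1 1) {T : End K V}
    (hd : LinearMap.det T = 1) (hk : kap T 1 ≤ 1) {x : V} {y : Dual K V} (hx : x ≠ 0) (hy : y ≠ 0)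
    (hn : 4 ≤ finrank K V) :
    Step (fun _ T' _ => LinearMap.det T' = 1 ∧ kap T' 1 ≤ 1) T x y := by
  have hb := bijective_of_det hd
  have r1 := kap_add_rank T 1
  obtain ⟨A, a1, a2⟩ := exists_R T 1 (by omega)
  have a3 : finrank K ((span K {x}).comap (nc T 1)) ≤ kap T 1 + 1 := finrank_comap_span_le _ _
  obtain ⟨e, b1, b2, b3⟩ := exists_avoid y hy [A] [(span K {x}).comap (nc T 1)]
    (by simpa using a1) (by simp only [List.mem_singleton, forall_eq]; omega) hK
  simp only [List.mem_singleton, forall_eq] at b2 b3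
  have b4 : ∀ c : K, T e ≠ c • e := fun c => by
    rcases h2 c with rfl | rfl
    · exact ne_zero_smul hd b1
    · exact ne_smul_of_notMem fun h => b3 (LinearMap.ker_le_comap _ h)
  have d0 := nc_ne_zero b4 1
  obtain ⟨φ, e1, e2, e3, e4⟩ := exists_functional d0 (notMem_span_nc b4) [span K {x}]
    [LinearMap.range (nc T 1)] (by simpa using two_le_finrank_sup d0 (not_span_le hx b3))
    (by simpa using le_finrank_sup _ (by omega)) hK
  simp only [List.mem_singleton, forall_eq] at e3 e4
  refine step_mk b1 d0 e1 e2 e3 e4 fun hT => ⟨by rw [det_red T e1 hT, hd], ?_⟩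
  have f1 := Submodule.finrank_mono (inf_le_right : LinearMap.ker φ ⊓ kc T e 1 ≤ _)
  rw [kap_red]
  by_cases h : 1 ≤ kap T 1
  · rw [kc_eq_ker hb (a2 h ▸ b2)] at f1 ⊢
    exact f1.trans hk
  · have := finrank_kc_le T e 1
    omega

theorem exists_cyclic2 (h2 : ∀ c : K, c = 0 ∨ c = 1) (hK : Big K 1 1) {T : End K V}
    (hd : LinearMap.det T = 1) (hk : kap T 1 ≤ 1) (hn : finrank K V = 3) :
    ∃ e, LinearIndependent K ![e, T e, T (T e)] := by
  obtain ⟨-, y, -, hy⟩ := exists_ne_zero_pair (K := K) (V := V) (by omega)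
  obtain ⟨A, a1, a2⟩ := exists_R T 1 (by omega)
  obtain ⟨e, b1, b2, b3⟩ := exists_avoid y hy [A] [LinearMap.ker (nc T 1)] (by simpa using a1)
    (by simp only [List.mem_singleton, forall_eq]; show kap T 1 + 2 ≤ _; omega) hK
  simp only [List.mem_singleton, forall_eq] at b2 b3
  have k0 := kap_zero hd
  refine ⟨e, linInd_cyclic hn (fun c => ?_) (fun c => ?_) fun c => ?_⟩ <;>
    rcases h2 c with rfl | rfl
  · omega
  · omega
  · exact ne_zero_smul hd b1
  · exact ne_smul_of_notMem b3
  · omega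
  · exact fun h => a2 h ▸ b2

/-- The first step when the fixed space has dimension two. -/
theorem step_kap_two (h2 : ∀ c : K, c = 0 ∨ c = 1) (hK : Big K 1 1) {T : End K V}
    (hd : LinearMap.det T = 1) (hk : kap T 1 = 2) (hn : 5 ≤ finrank K V) :
    ∃ x y, Step (fun _ T' _ => LinearMap.det T' = 1 ∧ kap T' 1 ≤ 1) T x y := by
  have hb := bijective_of_det hd
  have r1 := kap_add_rank T 1
  obtain ⟨-, y, -, hy⟩ := exists_ne_zero_pair (K := K) (V := V) (by omega)
  obtain ⟨e, b1, b2, b3⟩ := exists_avoid y hy [LinearMap.range (nc T 1)] [LinearMap.ker (nc T 1)]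
    (by simp only [List.mem_singleton, forall_eq]; omega)
    (by simp only [List.mem_singleton, forall_eq]; show kap T 1 + 2 ≤ _; omega) hK
  simp only [List.mem_singleton, forall_eq] at b2 b3
  have b4 : ∀ c : K, T e ≠ c • e := fun c => by
    rcases h2 c with rfl | rfl
    · exact ne_zero_smul hd b1
    · exact ne_smul_of_notMem b3
  have d0 := nc_ne_zero b4 1
  obtain ⟨φ, e1, e2, e3, e4⟩ := exists_functional d0 (notMem_span_nc b4) [LinearMap.ker (nc T 1)]
    [LinearMap.range (nc T 1)] (by simpa using le_finrank_sup _ hk.ge)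
    (by simpa using le_finrank_sup _ (by omega)) hK
  simp only [List.mem_singleton, forall_eq] at e3 e4
  refine ⟨e, y, step_mk b1 d0 e1 e2 (fun h => ?_) e4 fun hT => ⟨by rw [det_red T e1 hT, hd], ?_⟩⟩
  · have : φ e = 0 := h (mem_span_singleton_self e)
    rw [e1] at this
    exact one_ne_zero this
  · have f1 : _ ≤ kap T 1 := finrank_inf_succ_le e3
    rw [kap_red, kc_eq_ker hb b2]
    omega

theorem det_eq_one_of_ne (h2 : ∀ c : K, c = 0 ∨ c = 1) {A : End K V} (h : LinearMap.ker A = ⊥) :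
    LinearMap.det A = 1 :=
  (h2 _).resolve_left fun h1 => LinearMap.det_eq_zero_iff_ker_ne_bot.1 h1 h

theorem comm_of_sq_zero (h2 : ∀ c : K, c = 0 ∨ c = 1) {T : End K V} (hd : LinearMap.det T = 1)
    (hn : 3 ≤ finrank K V) (h : (T - 1) ^ 2 = 0) : Comm T := by
  have r1 := kap_add_rank T 1
  have r2 : finrank K (LinearMap.range (nc T 1)) ≤ kap T 1 := Submodule.finrank_mono (by
    rintro _ ⟨v, rfl⟩
    rw [nc_one]
    exact LinearMap.congr_fun ((pow_two _).symm.trans h) v)
  generalize finrank K (LinearMap.range (nc T 1)) = r at r1 r2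
  by_cases h0 : r = 0
  · have : LinearMap.ker (nc T 1) = ⊤ := Submodule.eq_top_of_finrank_eq (by
      show kap T 1 = _; omega)
    rw [LinearMap.ker_eq_top, nc_one, sub_eq_zero] at this
    exact this ▸ comm_one
  by_cases h1 : r = 1
  · exact comm_of_kap hn hd (by omega)
  let g : K[X] := X ^ r + (X + 1)
  have g1 : (X + 1 : K[X]).degree < r := by
    rw [← C_1, degree_X_add_C]; exact_mod_cast (by omega : 1 < r)
  have hg : g.Monic := monic_X_pow_add g1
  have g2 : g.natDegree = r := by
    rw [natDegree_add_eq_left_of_degree_lt (by rwa [degree_X_pow]), natDegree_X_pow]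
  let f : Unit → K[X] := fun _ => g
  have := finite_model (f := f) fun _ => hg.ne_zero
  have g3 : finrank K (Model f) = r := by
    rw [finrank_model fun _ => hg.ne_zero]; simpa using g2
  have g4 : ∀ c : K, LinearMap.ker (nc (mulX f) c) = ⊥ := fun c => by
    by_contra h3
    have h4 : (mulX f).HasEigenvalue c := by
      rw [Module.End.hasEigenvalue_iff, Module.End.eigenspace_def]; exact h3
    rw [Module.End.hasEigenvalue_iff_isRoot_charpoly, charpoly_mulX fun _ => hg] at h4
    have h5 : (1 : K) + 1 = 0 := (h2 _).resolve_right (by simp)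
    rcases h2 c with rfl | rfl <;> simp [g, h0, h5] at h4
  generalize mulX f = B at g4
  have g5 : Comm (1 + LinearMap.inl K _ _ ∘ₗ nc B 1 ∘ₗ LinearMap.snd K _ _ :
      End K (Model f × Model f)) := by
    refine ⟨B.prodMap 1, 1 + LinearMap.inl K _ _ ∘ₗ LinearMap.snd K _ _, ?_, ?_, ?_⟩
    · rw [LinearMap.det_prodMap, map_one, mul_one]
      exact det_eq_one_of_ne h2 (by simpa [nc] using g4 0)
    · refine det_eq_one_of_ne h2 (LinearMap.ker_eq_bot'.2 fun v hv => ?_)
      have h3 : v.2 = 0 := by simpa using congrArg Prod.snd hv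
      exact Prod.ext (by simpa [h3] using congrArg Prod.fst hv) h3
    · exact LinearMap.ext fun v => Prod.ext (by simp) (by simp)
  refine (g5.prodMap (comm_one (V := Fin (finrank K V - 2 * r) → K))).of_sim ?_
  have g6 : (1 + LinearMap.inl K _ _ ∘ₗ nc B 1 ∘ₗ LinearMap.snd K _ _ :
      End K (Model f × Model f)).prodMap (1 : End K (Fin (finrank K V - 2 * r) → K)) - 1 =
      (LinearMap.inl K _ _ ∘ₗ nc B 1 ∘ₗ LinearMap.snd K _ _).prodMap 0 :=
    LinearMap.ext fun v => Prod.ext (by simp) (by simp)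
  refine sim_of_sq_zero (by simp [g3]; omega) h ?_ ?_
  · rw [g6]
    exact LinearMap.ext fun v => by simp [pow_two]
  · have g7 : LinearMap.ker (LinearMap.inl K (Model f) (Model f) ∘ₗ nc B 1 ∘ₗ
        LinearMap.snd K (Model f) (Model f)) = LinearMap.range (LinearMap.inl K _ _) := by
      rw [LinearMap.ker_comp_of_ker_eq_bot _ Submodule.ker_inl,
        LinearMap.ker_comp_of_ker_eq_bot _ (g4 1), LinearMap.ker_snd]
    rw [g6, finrank_ker_prodMap, g7, LinearMap.ker_zero, finrank_top,
      LinearMap.finrank_range_of_inj LinearMap.inl_injective, g3, Module.finrank_fin_fun, ← nc_one]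
    show kap T 1 = _
    omega

/-- The dimension carried by a multiset of elementary divisors. -/
noncomputable def wt (s : Multiset (K[X] × ℕ)) : ℕ := (s.map fun x => x.1.natDegree * x.2).sum

theorem wt_cons (x : K[X] × ℕ) (s : Multiset (K[X] × ℕ)) :
    wt (x ::ₘ s) = x.1.natDegree * x.2 + wt s := by simp [wt]

theorem comm_of_split (h2 : ∀ c : K, c = 0 ∨ c = 1) {T : End K V} (hd : LinearMap.det T = 1)
    {s t : Multiset (K[X] × ℕ)} (h : ed T = s + t)
    (hs : ∀ S : End K (Fin (wt s) → K), LinearMap.det S = 1 → ed S = s → Comm S)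
    (ht : ∀ S : End K (Fin (wt t) → K), LinearMap.det S = 1 → Comm S) : Comm T := by
  have hv := ed_valid T
  obtain ⟨S, hS⟩ := exists_ed_eq (V := Fin (wt s) → K) (s := s)
    (fun x hx => hv x (h ▸ Multiset.mem_add.2 (Or.inl hx))) (Module.finrank_fin_fun K)
  obtain ⟨R, hR⟩ := exists_ed_eq (V := Fin (wt t) → K) (s := t)
    (fun x hx => hv x (h ▸ Multiset.mem_add.2 (Or.inr hx))) (Module.finrank_fin_fun K)
  have h1 : ed T = ed S + ed R := by rw [h, hS, hR]
  have h3 := det_eq_of_sim (sim_of_ed_eq (h1.trans (ed_prodMap S R).symm))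
  rw [hd, LinearMap.det_prodMap] at h3
  exact comm_of_ed h1
    (hs S ((h2 _).resolve_left (left_ne_zero_of_mul_eq_one h3.symm)) hS)
    (ht R ((h2 _).resolve_left (right_ne_zero_of_mul_eq_one h3.symm)))

theorem two_mul_countP_le [DecidableEq K[X]] (s : Multiset (K[X] × ℕ)) (h : ∀ x ∈ s, x.1 = X - 1 → 2 ≤ x.2) :
    2 * s.countP (fun x => x.1 = X - 1) ≤ wt s := by
  induction s using Multiset.induction_on with
  | empty => simp
  | cons a s ih =>
    have h1 := ih fun x hx => h x (Multiset.mem_cons_of_mem hx)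
    rw [wt_cons, Multiset.countP_cons]
    split_ifs with h2
    · have := h a (Multiset.mem_cons_self _ _) h2
      rw [h2, natDegree_X_sub_one]
      omega
    · omega

end

theorem zmod2_cases : ∀ c : ZMod 2, c = 0 ∨ c = 1 := by decide

theorem big_zmod2 : Big (ZMod 2) 1 1 := fun _ => by rw [Nat.card_zmod]; norm_num

theorem good_inv2 (n : ℕ) : ∀ (V : Type u) [AddCommGroup V] [Module (ZMod 2) V]
    [FiniteDimensional (ZMod 2) V] (T : End (ZMod 2) V) (x : V) (y : Dual (ZMod 2) V),
    finrank (ZMod 2) V = n + 3 → LinearMap.det T = 1 → kap T 1 ≤ 1 → x ≠ 0 → y ≠ 0 →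
      Good ExpOne T x y := by
  induction n with
  | zero =>
    intro V _ _ _ T x y hn hd hk hx hy
    obtain ⟨e, he⟩ := exists_cyclic2 zmod2_cases big_zmod2 hd hk hn
    exact good_three_two hn hd he hx hy
  | succ n ih =>
    intro V _ _ _ T x y hn hd hk hx hy
    exact (step_inv2 zmod2_cases big_zmod2 hd hk hx hy (by omega)).good hd
      fun φ T' x' y' h1 h3 h4 h5 => ih _ T' x' y' (by omega) h3.1 h3.2 h4 h5

/-- The field with two elements. -/
theorem comm_two (n : ℕ) : ∀ (V : Type) [AddCommGroup V] [Module (ZMod 2) V]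
    [FiniteDimensional (ZMod 2) V] (T : End (ZMod 2) V), finrank (ZMod 2) V = n → 3 ≤ n →
    LinearMap.det T = 1 → Comm T := by
  classical
  induction n using Nat.strong_induction_on with
  | _ n ih =>
  intro V _ _ _ T hn h3 hd
  by_cases h1 : (T - 1) ^ 2 = 0
  · exact comm_of_sq_zero zmod2_cases hd (by omega) h1
  by_cases h2 : kap T 1 ≤ 1
  · obtain ⟨x, y, hx, hy⟩ := exists_ne_zero_pair (K := ZMod 2) (V := V) (by omega)
    exact comm_of_good (good_inv2 (n - 3) V T x y (by omega) hd h2 hx hy)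
  have h4 : kap T 1 + 1 ≤ finrank (ZMod 2) V := finrank_succ_le_of_ne_top fun h => h1 (by
    rw [LinearMap.ker_eq_top, nc_one] at h
    rw [h, zero_pow two_ne_zero])
  rcases h4.eq_or_lt with h4 | h4
  · exact comm_of_kap (by omega) hd h4
  have hv := ed_valid T
  have hw : wt (ed T) = n := (finrank_eq_sum_ed T).symm.trans hn
  have IH : ∀ t : Multiset ((ZMod 2)[X] × ℕ), 3 ≤ wt t → wt t < n →
      ∀ S : End (ZMod 2) (Fin (wt t) → ZMod 2), LinearMap.det S = 1 → Comm S :=
    fun t a1 a2 S hS => ih _ a2 _ S (Module.finrank_fin_fun _) a1 hS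
  by_cases h5 : (X - 1, 1) ∈ ed T
  · obtain ⟨t, ht⟩ := Multiset.exists_cons_of_mem h5
    rw [ht, wt_cons, natDegree_X_sub_one] at hw
    refine comm_of_split zmod2_cases hd (s := {(X - 1, 1)}) (t := t) ht (fun S _ hS => ?_)
      (IH t (by omega) (by omega))
    have h6 := (aeval_eq_zero_iff_ed S (X - 1)).2 (by simp [hS])
    rw [map_sub, aeval_X, map_one, sub_eq_zero] at h6
    exact h6 ▸ comm_one
  have h6 : ∀ x ∈ ed T, x.1 = X - 1 → 2 ≤ x.2 := fun x hx h => by
    have h7 := (hv x hx).2.2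
    by_contra h8
    exact h5 (by rwa [← h, show 1 = x.2 by omega])
  have h7 : (ed T).countP (fun x => x.1 = X - 1) = kap T 1 := by
    rw [Multiset.countP_eq_card_filter, kap, nc_one, ← card_edU, edU]
    congr
  obtain ⟨z, hz, hz'⟩ : ∃ z ∈ ed T, ¬ z.1 ^ z.2 ∣ (X - 1) ^ 2 := by
    by_contra h
    push Not at h
    exact h1 (by simpa using (aeval_eq_zero_iff_ed T _).2 h)
  obtain ⟨t, ht⟩ := Multiset.exists_cons_of_mem hz
  have h8 := two_mul_countP_le t fun x hx => h6 x (ht ▸ Multiset.mem_cons_of_mem hx)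
  have h9 : kap T 1 = 2 → 5 ≤ n → Comm T := fun a1 a2 => by
    obtain ⟨x, y, h⟩ := step_kap_two zmod2_cases big_zmod2 hd a1 (by omega)
    exact comm_of_good (h.good hd fun φ T' x' y' h1 h3 h4 h5 =>
      good_inv2 (n - 4) _ T' x' y' (by omega) h3.1 h3.2 h4 h5)
  rw [ht, Multiset.countP_cons] at h7
  rw [ht, wt_cons] at hw
  by_cases a1 : z.1 = X - 1
  · have a2 : 3 ≤ z.2 := by
      by_contra a2
      exact hz' (a1 ▸ pow_dvd_pow _ (by omega))
    rw [if_pos a1] at h7
    rw [a1, natDegree_X_sub_one] at hw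
    by_cases a3 : kap T 1 = 2
    · exact h9 a3 (by omega)
    have a4 : wt {z} = z.2 := by simp [wt, a1, natDegree_X_sub_one]
    exact comm_of_split zmod2_cases hd (s := {z}) (t := t) ht
      (fun S hS _ => IH _ (by omega) (by omega) S hS) (IH t (by omega) (by omega))
  · have a2 : 1 ≤ z.1.natDegree * z.2 :=
      Nat.mul_pos (hv z hz).1.natDegree_pos (hv z hz).2.2
    rw [if_neg a1] at h7
    by_cases a3 : kap T 1 = 2
    · exact h9 a3 (by omega)
    obtain ⟨u, hu, hu'⟩ := Multiset.countP_pos.1 (by omega : 0 < t.countP fun x => x.1 = X - 1)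
    obtain ⟨r, rfl⟩ := Multiset.exists_cons_of_mem hu
    have a4 := h6 u (ht ▸ Multiset.mem_cons_of_mem hu) hu'
    have a5 := two_mul_countP_le r fun x hx =>
      h6 x (ht ▸ Multiset.mem_cons_of_mem (Multiset.mem_cons_of_mem hx))
    rw [Multiset.countP_cons, if_pos hu'] at h7
    rw [wt_cons, hu', natDegree_X_sub_one] at hw
    have a6 : wt {z, u} = z.1.natDegree * z.2 + u.2 := by simp [wt, hu', natDegree_X_sub_one]
    exact comm_of_split zmod2_cases hd (s := {z, u}) (t := r) (by rw [ht]; simp)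
      (fun S hS _ => IH _ (by omega) (by omega) S hS) (IH r (by omega) (by omega))

end CfsgLib.Ore
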